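import Mathlib.Algebra.CharP.Lemmas
import Mathlib.Algebra.CharP.Two
import Mathlib.Algebra.Polynomial.Eval.Defs
import Mathlib.Algebra.Polynomial.AlgebraMap
import Mathlib.Algebra.Ring.GeomSum
import Mathlib.Algebra.Field.ZMod
import Mathlib.GroupTheory.PGroup
import Mathlib.Tactic.Abel
import Mathlib.Tactic.Module
import Mathlib.Tactic.LinearCombination
import Mathlib.Algebra.Algebra.ZMod
import Mathlib.Tactic.NoncommRing

/-!
# Isotropic orbits of a unipotent map with a trace element

`G` is an automorphism of order dividing `n = p ^ m` of a vector space `V` over `F_p`, `φ` an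
endomorphism with `∑ G ^ i φ G ^ (-i) = 2` and `β` an alternating equivariant pairing into a group
on which `G` has degree at most `m + 1`, with `φ` self-adjoint. Then some `v` has
`{G ^ l v - v}` inside an isotropic subgroup whose image under `G - 1` has more than `n` elements.
-/

set_option autoImplicit false
set_option linter.style.haveILetI false

namespace CfsgLib.ThompsonCount

variable {p m : ℕ}

/-- A nilpotent endomorphism decreases a `p`-group by at least `p` at each step. -/
theorem pow_succ_le_card {M : Type*} [AddCommGroup M] [Finite M] [hp : Fact p.Prime]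
    (hM : ∀ H : AddSubgroup M, ∃ e, Nat.card H = p ^ e) (T : AddMonoid.End M) {N : ℕ}
    (hN : ∀ x, (⇑T)^[N] x = 0) :
    ∀ (r : ℕ) (H : AddSubgroup M), (∀ x ∈ H, T x ∈ H) → (∃ x ∈ H, (⇑T)^[r] x ≠ 0) →
      p ^ (r + 1) ≤ Nat.card H := by
  intro r
  induction r with
  | zero =>
    rintro H - ⟨x, hx, hx0⟩
    obtain ⟨e, he⟩ := hM H
    have h1 : 1 < Nat.card H := by
      haveI : Nontrivial H := ⟨⟨⟨x, hx⟩, 0, fun h => hx0 (by simpa using congrArg Subtype.val h)⟩⟩
      exact Finite.one_lt_card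
    rw [he] at h1 ⊢
    have he0 : e ≠ 0 := by rintro rfl; simp at h1
    exact Nat.pow_le_pow_right hp.1.pos (Nat.one_le_iff_ne_zero.mpr he0)
  | succ r ih =>
    rintro H hH ⟨x, hx, hx0⟩
    set K := H.map (T : M →+ M) with hK
    have hKH : K ≤ H := by rintro _ ⟨y, hy, rfl⟩; exact hH y hy
    have h1 := ih K (by rintro _ ⟨y, hy, rfl⟩; exact ⟨T y, hH y hy, rfl⟩)
      ⟨T x, ⟨x, hx, rfl⟩, by rwa [← Function.iterate_succ_apply]⟩
    have hlt : Nat.card K < Nat.card H := by
      refine lt_of_le_of_ne (AddSubgroup.card_le_of_le hKH) fun heq => ?_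
      have hKeq : K = H := AddSubgroup.eq_of_le_of_card_ge hKH heq.ge
      have hall : ∀ j, ∀ y ∈ H, ∃ z ∈ H, (⇑T)^[j] z = y := by
        intro j
        induction j with
        | zero => exact fun y hy => ⟨y, hy, rfl⟩
        | succ j ihj =>
          intro y hy
          obtain ⟨z, hz, rfl⟩ := ihj y hy
          rw [← hKeq] at hz
          obtain ⟨w, hw, rfl⟩ := hz
          exact ⟨w, hw, Function.iterate_succ_apply _ _ _⟩
      obtain ⟨z, -, rfl⟩ := hall N x hx
      rw [hN z] at hx0
      exact hx0 (Function.iterate_fixed (map_zero T) _)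
    obtain ⟨a, ha⟩ := hM K
    obtain ⟨b, hb⟩ := hM H
    rw [ha, hb] at hlt
    rw [hb]
    rw [ha] at h1
    have hab : a < b := (Nat.pow_lt_pow_iff_right hp.1.one_lt).mp hlt
    have hra : r + 1 ≤ a := (Nat.pow_le_pow_iff_right hp.1.one_lt).mp h1
    exact Nat.pow_le_pow_right hp.1.pos (by omega)

theorem card_subgroup_pow [hp : Fact p.Prime] {M : Type*} [AddCommGroup M] [Finite M]
    (hM : IsPGroup p (Multiplicative M)) (H : AddSubgroup M) : ∃ e, Nat.card H = p ^ e := by
  obtain ⟨e, he⟩ := IsPGroup.iff_card.mp (hM.to_subgroup (AddSubgroup.toSubgroup H))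
  exact ⟨e, by rw [← he]; exact Nat.card_congr (Equiv.refl _)⟩

variable {V W : Type*} [AddCommGroup V] [AddCommGroup W]

theorem end_mul_apply (f g : AddMonoid.End V) (v : V) : (f * g) v = f (g v) := rfl

theorem end_pow_apply (G : AddMonoid.End V) (k : ℕ) (v : V) : (G ^ k) v = (⇑G)^[k] v := by
  induction k with
  | zero => rfl
  | succ k ih => rw [pow_succ', Function.iterate_succ_apply', ← ih]; rfl

/-- In characteristic `p` the trace of a cyclic group of order `n = p ^ m` is `(G - 1) ^ (n - 1)`. -/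
theorem geom_sum_eq_pow {R : Type*} [Ring R] [hp : Fact p.Prime] [CharP R p] (G : R) :
    ∑ i ∈ Finset.range (p ^ m), G ^ i = (G - 1) ^ (p ^ m - 1) := by
  letI : Algebra (ZMod p) R := ZMod.algebra R p
  have hX : (∑ i ∈ Finset.range (p ^ m), (Polynomial.X : Polynomial (ZMod p)) ^ i)
      = (Polynomial.X - 1) ^ (p ^ m - 1) := by
    have hne : (Polynomial.X - 1 : Polynomial (ZMod p)) ≠ 0 := by
      simpa using Polynomial.X_sub_C_ne_zero (1 : ZMod p)
    apply mul_right_cancel₀ hne
    rw [geom_sum_mul, ← pow_succ, Nat.sub_add_cancel (Nat.one_le_pow _ _ hp.1.pos), sub_pow_char_pow,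
      one_pow]
  simpa using congrArg (Polynomial.aeval G) hX

/-- The weight bound for commutators of iterated differences. -/
theorem weight_eq_zero {n : ℕ} {T G : AddMonoid.End V} (hT : T = G - 1) (hn : 0 < n) (hG : G ^ n = 1)
    (hTn : T ^ n = 0) {D : AddMonoid.End W} {σ : AddMonoid.End W} (hD : D = σ - 1)
    (hDm : D ^ (m + 1) = 0) (β : V →+ V →+ W) (hβ : ∀ u v, β (G u) (G v) = σ (β u v)) :
    ∀ a b l u w, n + m ≤ a + b + l → (D ^ l) (β ((T ^ a) u) ((T ^ b) w)) = 0 := by
  intro a
  induction a with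
  | zero =>
    intro b l u w h
    rcases le_or_gt (m + 1) l with hl | hl
    · rw [pow_eq_zero_of_le hl hDm]; rfl
    · have hb : (T ^ b) w = 0 := by rw [pow_eq_zero_of_le (show n ≤ b by omega) hTn]; rfl
      simp [hb]
  | succ a ih =>
    intro b l u w h
    set w' := (G ^ (n - 1)) w with hw'
    have hGw : G w' = w := by
      rw [hw', ← end_mul_apply, ← pow_succ', Nat.sub_add_cancel hn, hG]; rfl
    have hcomm : G * T ^ b = T ^ b * G := (show Commute G T by
      rw [hT]; exact (Commute.refl G).sub_right (Commute.one_right G)).pow_right b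
    set x := (T ^ a) u with hx
    set y := (T ^ b) w' with hy
    have hGy : G y = (T ^ b) w := by
      rw [hy, ← end_mul_apply, hcomm, end_mul_apply, hGw]
    have hTy : T y = (T ^ (b + 1)) w' := by rw [hy, pow_succ']; rfl
    have hTx : T x = (T ^ (a + 1)) u := by rw [hx, pow_succ']; rfl
    have key : β (T x) (G y) = D (β x y) - β x (T y) := by
      rw [hD, hT]
      show β (G x - x) (G y) = σ (β x y) - β x y - β x (G y - y)
      rw [map_sub β, AddMonoidHom.sub_apply, map_sub (β x), hβ]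
      abel
    rw [← hTx, ← hGy, key, map_sub, hTy, hx, hy, ih (b + 1) l u w' (by omega),
      ← end_mul_apply, ← pow_succ, ih b (l + 1) u w' (by omega), sub_zero]

/-- For `n = 5` the remaining pairing vanishes by the symmetry of the trace element. -/
theorem five_case {T G φ : AddMonoid.End V} (hT : T = G - 1) (hG : G ^ 5 = 1)
    (htr : ∀ v, ∑ i ∈ Finset.range 5, (G ^ i) (φ ((G ^ (5 - i)) v)) = v + v)
    {D σ : AddMonoid.End W} (hD : D = σ - 1) (hD2 : D ^ 2 = 0) (β : V →+ V →+ W)
    (hβ : ∀ u v, β (G u) (G v) = σ (β u v)) (halt : ∀ u, β u u = 0)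
    (hadj : ∀ u v, β (φ u) v = β u (φ v)) (h5 : ∀ v : V, 5 • v = 0)
    {x : V} (hx : T (T (T x)) = 0) : β x (T x) = 0 := by
  have h5W : ∀ u v, 5 • β u v = 0 := fun u v => by
    rw [← AddMonoidHom.smul_apply, ← map_nsmul, h5, map_zero]; rfl
  have hskew : ∀ u v, β u v = - β v u := by
    intro u v
    have := halt (u + v)
    simp only [map_add, AddMonoidHom.add_apply, halt, zero_add, add_zero] at this
    exact eq_neg_of_add_eq_zero_right this
  have he22 : β (φ (T (T x))) (T (T x)) = 0 := by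
    set z := T (T x)
    set e := β (φ z) z with he
    have h2 : e + e = 0 := by
      nth_rw 2 [he]
      rw [hadj, hskew z (φ z), ← he, add_neg_cancel]
    have h5e : 5 • e = 0 := h5W _ _
    have : e = 5 • e - ((e + e) + (e + e)) := by abel
    rw [this, h5e, h2]; simp
  have hGv : ∀ v, G v = v + T v := fun v => by
    rw [hT]; show G v = v + (G v - v); abel
  have hσw : ∀ w, σ w = w + D w := fun w => by
    rw [hD]; show σ w = w + (σ w - w); abel
  have hDD : ∀ w, D (D w) = 0 := fun w => by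
    rw [← end_mul_apply, ← sq, hD2]; rfl
  have hpow : ∀ i u v, β ((G ^ i) u) ((G ^ i) v) = (σ ^ i) (β u v) := by
    intro i
    induction i with
    | zero => intro u v; rfl
    | succ i ih => intro u v; rw [pow_succ', pow_succ', end_mul_apply, end_mul_apply,
                     end_mul_apply, hβ, ih]
  have hcancel : ∀ i, i < 5 → ∀ v, (G ^ i) ((G ^ (5 - i)) v) = v := fun i hi v => by
    rw [← end_mul_apply, ← pow_add, Nat.add_sub_cancel' hi.le, hG]; rfl
  have hsum : β (x + x) (T x) = ∑ i ∈ Finset.range 5,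
      (σ ^ i) (β (φ ((G ^ (5 - i)) x)) ((G ^ (5 - i)) (T x))) := by
    rw [← htr x, map_sum, AddMonoidHom.finsetSum_apply]
    refine Finset.sum_congr rfl fun i hi => ?_
    rw [← hpow i, hcancel i (Finset.mem_range.mp hi)]
  rw [Finset.sum_range_succ, Finset.sum_range_succ, Finset.sum_range_succ, Finset.sum_range_succ,
    Finset.sum_range_succ, Finset.sum_range_zero] at hsum
  simp only [end_pow_apply, Function.iterate_succ_apply', Function.iterate_zero_apply, Nat.reduceSub,
    hGv, hσw, hx, hDD, map_add, map_zero, AddMonoidHom.add_apply, AddMonoidHom.zero_apply, add_zero,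
    zero_add, he22] at hsum
  have hq : β x (T x) + β x (T x) = 0 := by
    rw [hsum]
    have a1 := h5W (φ x) (T x)
    have a2 := h5W (φ x) (T (T x))
    have a3 := h5W (φ (T x)) (T x)
    have a4 := h5W (φ (T x)) (T (T x))
    have a5 := h5W (φ (T (T x))) (T x)
    have b1 : 5 • D (β (φ x) (T x)) = 0 := by rw [← map_nsmul, a1, map_zero]
    have b2 : 5 • D (β (φ x) (T (T x))) = 0 := by rw [← map_nsmul, a2, map_zero]
    have b3 : 5 • D (β (φ (T x)) (T x)) = 0 := by rw [← map_nsmul, a3, map_zero]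
    have b4 : 5 • D (β (φ (T x)) (T (T x))) = 0 := by rw [← map_nsmul, a4, map_zero]
    have b5 : 5 • D (β (φ (T (T x))) (T x)) = 0 := by rw [← map_nsmul, a5, map_zero]
    linear_combination (norm := module) a1 + (3 : ℕ) • a2 + (3 : ℕ) • a3 + (11 : ℕ) • a4 + (4 : ℕ) • a5
      + (2 : ℕ) • b1 + (4 : ℕ) • b2 + (4 : ℕ) • b3 + (10 : ℕ) • b4 + (3 : ℕ) • b5
  have h5q : 5 • β x (T x) = 0 := h5W _ _
  have : β x (T x) = 5 • β x (T x) - ((β x (T x) + β x (T x)) + (β x (T x) + β x (T x))) := by abel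
  rw [this, h5q, hq]; simp

/-- The isotropic orbit. -/
theorem exists_isotropic_orbit [Finite V] [Nontrivial V] [hp : Fact p.Prime] (hp5 : 5 ≤ p) (hm : 1 ≤ m)
    (hpV : ∀ v : V, p • v = 0) (G φ : AddMonoid.End V) (σ : AddMonoid.End W)
    (hG : G ^ (p ^ m) = 1)
    (htr : ∀ v, ∑ i ∈ Finset.range (p ^ m), (G ^ i) (φ ((G ^ (p ^ m - i)) v)) = v + v)
    (hσ : (σ - 1) ^ (m + 1) = 0) (β : V →+ V →+ W) (hβ : ∀ u v, β (G u) (G v) = σ (β u v))
    (halt : ∀ u, β u u = 0) (hadj : ∀ u v, β (φ u) v = β u (φ v)) :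
    ∃ (v : V) (U : AddSubgroup V), (∀ l, (G ^ l) v - v ∈ U) ∧ (∀ x ∈ U, ∀ y ∈ U, β x y = 0) ∧
      p ^ m < Nat.card ((AddSubgroup.closure (Set.range fun l : ℕ => (G ^ l) v - v)).map
        ((G - 1 : AddMonoid.End V) : V →+ V)) := by
  set n := p ^ m with hn
  have hn0 : 0 < n := Nat.pow_pos hp.1.pos
  haveI : Nontrivial (AddMonoid.End V) := ⟨⟨1, 0, fun h => by
    obtain ⟨w, hw⟩ := exists_ne (0 : V)
    exact hw (DFunLike.congr_fun h w)⟩⟩
  haveI : CharP (AddMonoid.End V) p := (CharP.charP_iff_prime_eq_zero hp.1).mpr (DFunLike.ext _ _ fun v => by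
    rw [AddMonoid.End.natCast_apply]; exact hpV v)
  set T : AddMonoid.End V := G - 1 with hT
  have hTn : T ^ n = 0 := by
    rw [hT, sub_pow_char_pow_of_commute _ _ (Commute.one_right G), one_pow, hG, sub_self]
  have hTa : ∀ x, T x = G x - x := fun x => by rw [hT]; rfl
  have hcomm : Commute G T := (Commute.refl G).sub_right (Commute.one_right G)
  -- a vector generating a free summand
  obtain ⟨r, w, hw, hTw⟩ : ∃ r w, (T ^ r) w ≠ 0 ∧ T ((T ^ r) w) = 0 := by
    classical
    obtain ⟨w, hw⟩ := exists_ne (0 : V)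
    have hex : ∃ r, (T ^ r) w = 0 := ⟨n, by rw [hTn]; rfl⟩
    have h0 : Nat.find hex ≠ 0 := fun h => hw (by
      have := Nat.find_spec hex
      rw [h] at this; simpa using this)
    refine ⟨Nat.find hex - 1, w, Nat.find_min hex (by omega), ?_⟩
    rw [← end_mul_apply, ← pow_succ', Nat.sub_add_cancel (Nat.one_le_iff_ne_zero.mpr h0)]
    exact Nat.find_spec hex
  obtain ⟨c, hc⟩ : ∃ c, (T ^ (n - 1)) c ≠ 0 := by
    set f := (T ^ r) w with hf
    have hfix : ∀ k, (G ^ k) f = f := by
      have h1 : G f = f := sub_eq_zero.mp hTw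
      intro k
      induction k with
      | zero => rfl
      | succ k ih => rw [pow_succ', end_mul_apply, ih, h1]
    refine ⟨φ f, fun h => hw ?_⟩
    have h2 := htr f
    simp only [hfix] at h2
    have hs : ∀ s : Finset ℕ, ∑ i ∈ s, (G ^ i) (φ f) = (∑ i ∈ s, G ^ i : AddMonoid.End V) (φ f) := fun s =>
      (AddMonoidHom.finsetSum_apply (fun i => ((G ^ i : AddMonoid.End V) : V →+ V)) s (φ f)).symm
    rw [hs, geom_sum_eq_pow, ← hT] at h2
    have h2' : f + f = 0 := by rw [← h2]; exact h
    rcases hp.1.eq_two_or_odd' with h | ⟨k, hk⟩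
    · omega
    · have := hpV f
      rw [show p = 2 * k + 1 by omega, add_smul, one_smul, mul_comm, mul_smul, two_nsmul, h2', smul_zero,
        zero_add] at this
      exact this
  have hn5 : 5 ≤ n := le_trans hp5 (Nat.le_self_pow (by omega) p)
  have hm3 : m + 3 ≤ n := by
    have h1 : m < 5 ^ (m - 1) + 1 := by
      have := Nat.lt_pow_self (n := m - 1) (show 1 < 5 by norm_num)
      omega
    have h2 : 5 ^ m ≤ n := Nat.pow_le_pow_left hp5 m
    have h3 : 5 ^ m = 5 ^ (m - 1) * 5 := by rw [← pow_succ, Nat.sub_add_cancel hm]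
    omega
  set j := n - m - 3 with hj
  set v := (T ^ j) c with hv
  set O := AddSubgroup.closure (Set.range fun l : ℕ => (G ^ l) v - v) with hO
  have hTv : T v = (T ^ (j + 1)) c := by rw [hv, pow_succ']; rfl
  -- the orbit lies in an invariant subgroup generated by the higher differences
  set S := AddSubgroup.closure (Set.range fun a : ℕ => (T ^ (j + 1 + a)) c) with hS
  have hGS : ∀ x ∈ S, G x ∈ S := by
    intro x hx
    have : S ≤ S.comap (G : V →+ V) := by
      rw [hS, AddSubgroup.closure_le]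
      rintro _ ⟨a, rfl⟩
      have : G ((T ^ (j + 1 + a)) c) = (T ^ (j + 1 + a)) c + (T ^ (j + 1 + (a + 1))) c := by
        rw [show j + 1 + (a + 1) = (j + 1 + a) + 1 by omega, pow_succ' T, end_mul_apply, hTa]
        abel
      show G ((T ^ (j + 1 + a)) c) ∈ AddSubgroup.closure _
      rw [this]
      exact add_mem (AddSubgroup.subset_closure ⟨a, rfl⟩) (AddSubgroup.subset_closure ⟨a + 1, rfl⟩)
    exact this hx
  have hTvS : T v ∈ S := AddSubgroup.subset_closure ⟨0, by simp [hTv]⟩
  have hvS : ∀ l, (G ^ l) v - v ∈ S := by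
    intro l
    induction l with
    | zero => simp
    | succ l ih =>
      have : (G ^ (l + 1)) v - v = G ((G ^ l) v - v) + T v := by
        rw [pow_succ', end_mul_apply, map_sub, hTa]
        abel
      rw [this]; exact add_mem (hGS _ ih) hTvS
  have hweight : ∀ a b, n + m ≤ a + b → β ((T ^ a) c) ((T ^ b) c) = 0 := fun a b h =>
    by simpa using weight_eq_zero hT hn0 hG hTn rfl hσ β hβ a b 0 c c (by omega)
  have hskew : ∀ u v, β u v = - β v u := by
    intro u v
    have := halt (u + v)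
    simp only [map_add, AddMonoidHom.add_apply, halt, zero_add, add_zero] at this
    exact eq_neg_of_add_eq_zero_right this
  have hgen : ∀ a b, β ((T ^ (j + 1 + a)) c) ((T ^ (j + 1 + b)) c) = 0 := by
    intro a b
    wlog hab : a ≤ b generalizing a b
    · rw [hskew, this b a (by omega), neg_zero]
    by_cases heq : a = b
    · subst heq; exact halt _
    by_cases hbig : n + m ≤ (j + 1 + a) + (j + 1 + b)
    · exact hweight _ _ hbig
    -- the only remaining pair
    have hn5' : n = 5 ∧ m = 1 ∧ a = 0 ∧ b = 1 := by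
      have hm1 : m = 1 := by
        by_contra hne
        have h2 : 5 ^ m ≤ n := Nat.pow_le_pow_left hp5 m
        have h3 : m - 2 < 5 ^ (m - 2) := Nat.lt_pow_self (by norm_num)
        have h4 : 5 ^ m = 5 ^ (m - 2) * 25 := by
          rw [show (25 : ℕ) = 5 ^ 2 by norm_num, ← pow_add, Nat.sub_add_cancel (by omega)]
        omega
      have hodd : n % 2 = 1 := by
        rw [hn, Nat.pow_mod, Nat.odd_iff.mp (hp.1.odd_of_ne_two (by omega))]; simp
      omega
    obtain ⟨h5, hm1, rfl, rfl⟩ := hn5'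
    have hj1 : j = 1 := by omega
    rw [hj1]
    have hp' : p = 5 := by rw [hn, hm1, pow_one] at h5; exact h5
    rw [h5] at hG htr hTn
    rw [show (1 + 1 + 1 : ℕ) = (1 + 1) + 1 from rfl, pow_succ' T (1 + 1), end_mul_apply]
    refine five_case hT hG htr (D := σ - 1) rfl ?_ β hβ halt hadj (fun v => hp' ▸ hpV v) ?_
    · rw [show 2 = m + 1 by omega]; exact hσ
    · rw [← end_mul_apply, ← end_mul_apply, ← end_mul_apply]
      rw [show T * T * T * T ^ (1 + 1) = T ^ 5 by noncomm_ring, hTn]; rfl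
  have hiso : ∀ x ∈ S, ∀ y ∈ S, β x y = 0 := by
    intro x hx
    have h1 : ∀ y ∈ S, ∀ a, β ((T ^ (j + 1 + a)) c) y = 0 := by
      intro y hy a
      have : S ≤ (β ((T ^ (j + 1 + a)) c)).ker := by
        rw [hS, AddSubgroup.closure_le]; rintro _ ⟨b, rfl⟩; exact hgen a b
      exact this hy
    intro y hy
    have : S ≤ (β.flip y).ker := by
      rw [hS, AddSubgroup.closure_le]; rintro _ ⟨a, rfl⟩; exact h1 y hy a
    exact this hx
  refine ⟨v, S, hvS, hiso, ?_⟩
  -- the orbit is invariant under `T` and `T` has a chain of length `m + 1` on its image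
  have hTO : ∀ x ∈ O, T x ∈ O := by
    intro x hx
    have : O ≤ O.comap (T : V →+ V) := by
      rw [hO, AddSubgroup.closure_le]
      rintro _ ⟨l, rfl⟩
      have : T ((G ^ l) v - v) = ((G ^ (l + 1)) v - v) - ((G ^ l) v - v) - ((G ^ 1) v - v) := by
        rw [hTa, pow_succ', pow_one, end_mul_apply, map_sub]; abel
      show T ((G ^ l) v - v) ∈ AddSubgroup.closure _
      rw [this]
      exact sub_mem (sub_mem (AddSubgroup.subset_closure ⟨l + 1, rfl⟩) (AddSubgroup.subset_closure ⟨l, rfl⟩))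
        (AddSubgroup.subset_closure ⟨1, rfl⟩)
    exact this hx
  set K := O.map (T : V →+ V) with hK
  have hPV : IsPGroup p (Multiplicative V) := fun x => ⟨1, by
    rw [pow_one]; exact congrArg Multiplicative.ofAdd (hpV x.toAdd)⟩
  refine lt_of_lt_of_le (Nat.pow_lt_pow_right hp.1.one_lt (Nat.lt_succ_self m))
    (pow_succ_le_card (card_subgroup_pow hPV) T (N := n)
      (fun x => by rw [← end_pow_apply, hTn]; rfl) m K (by rintro _ ⟨y, hy, rfl⟩; exact ⟨T y, hTO y hy, rfl⟩)
      ⟨T (T v), ⟨T v, AddSubgroup.subset_closure ⟨1, by show (G ^ 1) v - v = T v; rw [pow_one, hTa]⟩, rfl⟩, ?_⟩)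
  rw [← end_pow_apply, hTv, ← end_mul_apply, ← end_mul_apply,
    show T ^ m * T * T ^ (j + 1) = T ^ (n - 1) by rw [← pow_succ, ← pow_add]; congr 1; omega]
  exact hc

end CfsgLib.ThompsonCount
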