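import Mathlib.GroupTheory.Index
import Mathlib.GroupTheory.Subgroup.Centralizer
import Mathlib.Tactic.Group

/-!
# Thompson's counting with the commutators of one element

Let `A` be abelian of largest order among the abelian subgroups of `P`. If the commutators
`⁅v⁻¹, a⁆`, `a ∈ A`, lie in `P` and commute pairwise, they meet every coset of the fixed points
of `A` in the subgroup they generate.
-/

set_option autoImplicit false

open scoped commutatorElement

namespace CfsgLib.ThompsonCount

variable {X : Type*} [Group X] [Finite X]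

/-- The subgroup generated by the commutators `⁅v⁻¹, a⁆`. -/
def commSpan (A : Subgroup X) (v : X) : Subgroup X :=
  Subgroup.closure (Set.range fun a : A => ⁅v⁻¹, (a : X)⁆)

omit [Finite X] in
theorem relIndex_mul_card_of_le {H K : Subgroup X} (h : H ≤ K) : H.relIndex K * Nat.card H = Nat.card K := by
  rw [Subgroup.relIndex, mul_comm, ← Nat.card_congr (Subgroup.subgroupOfEquivOfLe h).toEquiv,
    Subgroup.card_mul_index]

theorem exists_commutator_mul_fixed {A P : Subgroup X} {v : X} (hA : IsMulCommutative A) (hAP : A ≤ P)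
    (hmax : ∀ Y : Subgroup X, Y ≤ P → IsMulCommutative Y → Nat.card Y ≤ Nat.card A)
    (hvP : ∀ a ∈ A, ⁅v⁻¹, a⁆ ∈ P) (hvc : ∀ a ∈ A, ∀ b ∈ A, Commute ⁅v⁻¹, a⁆ ⁅v⁻¹, b⁆) :
    ∀ x ∈ commSpan A v, ∃ a ∈ A, ⁅v⁻¹, a⁆⁻¹ * x ∈ Subgroup.centralizer (A : Set X) := by
  classical
  set κ : X → X := fun a => ⁅v⁻¹, a⁆ with hκ
  set M := commSpan A v with hMdef
  have hκmul : ∀ a b, κ (a * b) = κ a * (a * κ b * a⁻¹) := fun a b => by
    simp only [hκ, commutatorElement_def]; group
  have hAc : ∀ a ∈ A, ∀ b ∈ A, a * b = b * a := fun a ha b hb => setLike_mul_comm ha hb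
  have hv : ∀ a ∈ A, κ a ∈ M := fun a ha => Subgroup.subset_closure ⟨⟨a, ha⟩, rfl⟩
  have hM : IsMulCommutative M :=
    Subgroup.isMulCommutative_closure (by rintro _ ⟨a, rfl⟩ _ ⟨b, rfl⟩; exact hvc a a.2 b b.2)
  have hMc : ∀ a ∈ M, ∀ b ∈ M, a * b = b * a := fun a ha b hb => setLike_mul_comm ha hb
  have hMP : M ≤ P := (Subgroup.closure_le _).mpr (by rintro _ ⟨a, rfl⟩; exact hvP a a.2)
  set D := A ⊓ Subgroup.centralizer (M : Set X) with hD
  set F := M ⊓ Subgroup.centralizer (A : Set X) with hF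
  have hDfix : ∀ d ∈ D, κ d ∈ F := by
    intro d hd
    refine ⟨hv d hd.1, Subgroup.mem_centralizer_iff.mpr fun b hb => ?_⟩
    have h1 : d * κ b * d⁻¹ = κ b := by
      rw [← Subgroup.mem_centralizer_iff.mp hd.2 _ (hv b hb), mul_inv_cancel_right]
    have h2 : κ d * κ b = κ b * (b * κ d * b⁻¹) := by
      rw [← hκmul b d, ← hAc d hd.1 b hb, hκmul d b, h1]
    rw [hMc _ (hv d hd.1) _ (hv b hb)] at h2
    calc b * κ d = (b * κ d * b⁻¹) * b := by group
      _ = κ d * b := by rw [← mul_left_cancel h2]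
  have hrel : ∀ a ∈ A, ∀ c ∈ A, (κ a)⁻¹ * κ (a * c) ∈ Subgroup.centralizer (A : Set X) → c ∈ D := by
    intro a ha c hc h
    rw [hκmul, inv_mul_cancel_left] at h
    have h1 := Subgroup.mem_centralizer_iff.mp h a ha
    have h2 : a * κ c * a⁻¹ = κ c := by
      calc a * κ c * a⁻¹ = a⁻¹ * (a * (a * κ c * a⁻¹)) := by group
        _ = a⁻¹ * ((a * κ c * a⁻¹) * a) := by rw [h1]
        _ = κ c := by group
    rw [h2] at h
    refine ⟨hc, ?_⟩
    have hgen : M ≤ Subgroup.centralizer ({c} : Set X) := by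
      refine (Subgroup.closure_le _).mpr ?_
      rintro _ ⟨⟨b, hb⟩, rfl⟩
      rw [SetLike.mem_coe, Subgroup.mem_centralizer_singleton_iff]
      show κ b * c = c * κ b
      have h3 : b * κ c * b⁻¹ = κ c := by
        rw [Subgroup.mem_centralizer_iff.mp h b hb, mul_inv_cancel_right]
      have h4 : κ b * κ c = κ c * (c * κ b * c⁻¹) := by
        rw [← hκmul c b, hAc c hc b hb, hκmul b c, h3]
      rw [hMc _ (hv b hb) _ (hv c hc)] at h4
      calc κ b * c = (c * κ b * c⁻¹) * c := by rw [← mul_left_cancel h4]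
        _ = c * κ b := by group
    exact Subgroup.mem_centralizer_iff.mpr fun x hx => Subgroup.mem_centralizer_singleton_iff.mp (hgen hx)
  -- the induced map on cosets
  let Φ : ↥A ⧸ D.subgroupOf A → ↥M ⧸ F.subgroupOf M :=
    Quotient.lift (fun a : ↥A => (QuotientGroup.mk (⟨κ a, hv a a.2⟩ : ↥M) : ↥M ⧸ F.subgroupOf M))
      (fun a b hab => by
        rw [QuotientGroup.eq, Subgroup.mem_subgroupOf]
        have hd : (a : X)⁻¹ * b ∈ D := by
          simpa [QuotientGroup.leftRel_apply, Subgroup.mem_subgroupOf] using hab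
        show (κ a)⁻¹ * κ b ∈ F
        have h5 : (κ a)⁻¹ * κ b = a * κ ((a : X)⁻¹ * b) * (a : X)⁻¹ := by
          have := hκmul (a : X) ((a : X)⁻¹ * b)
          rw [mul_inv_cancel_left] at this
          rw [this, inv_mul_cancel_left]
        rw [h5, Subgroup.mem_centralizer_iff.mp (hDfix _ hd).2 a a.2, mul_inv_cancel_right]
        exact hDfix _ hd)
  have hinj : Function.Injective Φ := by
    intro x y hxy
    induction x using QuotientGroup.induction_on with
    | H a =>
      induction y using QuotientGroup.induction_on with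
      | H b =>
        have h6 : (κ a)⁻¹ * κ b ∈ F := by
          simpa [Subgroup.mem_subgroupOf] using QuotientGroup.eq.mp hxy
        rw [QuotientGroup.eq, Subgroup.mem_subgroupOf]
        exact hrel a a.2 _ (mul_mem (inv_mem a.2) b.2) (by simpa using h6.2)
  -- maximality bounds the number of cosets
  have hle : Nat.card (↥M ⧸ F.subgroupOf M) ≤ Nat.card (↥A ⧸ D.subgroupOf A) := by
    have hMD : IsMulCommutative ↥(M ⊔ D) := by
      rw [← Subgroup.closure_eq M, ← Subgroup.closure_eq D, ← Subgroup.closure_union]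
      refine Subgroup.isMulCommutative_closure ?_
      rintro x (hx | hx) y (hy | hy)
      · exact hMc x hx y hy
      · exact Subgroup.mem_centralizer_iff.mp hy.2 x hx
      · exact (Subgroup.mem_centralizer_iff.mp hx.2 y hy).symm
      · exact hAc x hx.1 y hy.1
    have h1 := hmax _ (sup_le hMP (inf_le_left.trans hAP)) hMD
    have h2 : Nat.card M * M.relIndex D ≤ Nat.card ↥(M ⊔ D) := by
      rw [← relIndex_mul_card_of_le (H := M) (K := M ⊔ D) le_sup_left, mul_comm (Nat.card M)]
      exact Nat.mul_le_mul_right _ (Subgroup.relIndex_le_of_le_right le_sup_right (Subgroup.index_ne_zero_of_finite))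
    have hMDF : M ⊓ D ≤ F := fun x hx =>
      ⟨hx.1, Subgroup.mem_centralizer_iff.mpr fun a ha => hAc a ha x hx.2.1⟩
    have h3 : Nat.card (↥A ⧸ D.subgroupOf A) = D.relIndex A := rfl
    have h4 : Nat.card (↥M ⧸ F.subgroupOf M) = F.relIndex M := rfl
    rw [h3, h4]
    have h5 := relIndex_mul_card_of_le (H := D) (K := A) inf_le_left
    have h6 := relIndex_mul_card_of_le (H := F) (K := M) inf_le_left
    have h7 := relIndex_mul_card_of_le (H := M ⊓ D) (K := D) inf_le_right
    rw [Subgroup.inf_relIndex_right] at h7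
    have h8 := Nat.le_of_dvd Nat.card_pos (Subgroup.card_dvd_of_le hMDF)
    have h9 : 0 < M.relIndex D := Nat.pos_of_ne_zero (Subgroup.index_ne_zero_of_finite)
    have h10 : 0 < Nat.card ↥(M ⊓ D) := Nat.card_pos
    have h11 : (F.relIndex M) * (Nat.card ↥(M ⊓ D) * M.relIndex D) ≤ (D.relIndex A) * (Nat.card ↥(M ⊓ D) * M.relIndex D) := by
      calc (F.relIndex M) * (Nat.card ↥(M ⊓ D) * M.relIndex D)
          ≤ (F.relIndex M) * (Nat.card F * M.relIndex D) :=
            Nat.mul_le_mul_left _ (Nat.mul_le_mul_right _ h8)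
        _ = Nat.card M * M.relIndex D := by rw [← mul_assoc, h6]
        _ ≤ Nat.card A := h2.trans h1
        _ = D.relIndex A * (M.relIndex D * Nat.card ↥(M ⊓ D)) := by rw [h7, h5]
        _ = _ := by rw [mul_comm (M.relIndex D)]
    exact Nat.le_of_mul_le_mul_right h11 (Nat.mul_pos h10 h9)
  intro x hx
  have hbij : Function.Bijective Φ :=
    hinj.bijective_of_nat_card_le hle
  obtain ⟨q, hq⟩ := hbij.2 (QuotientGroup.mk (⟨x, hx⟩ : ↥M))
  induction q using QuotientGroup.induction_on with
  | H a =>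
    refine ⟨a, a.2, ?_⟩
    have h12 : (κ a)⁻¹ * x ∈ F := by
      simpa [Subgroup.mem_subgroupOf] using QuotientGroup.eq.mp hq
    exact h12.2

end CfsgLib.ThompsonCount
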