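import Cfsg.Agent.ThompsonCount.Layer
import Mathlib.Algebra.Module.ZMod
import Mathlib.GroupTheory.QuotientGroup.Basic

/-!
# The layer as a module with its commutator pairing

The quotient `C / C₀` of a layer as an abelian group with the conjugation action of the ambient
group, and the commutator as a biadditive map into the centre of `R`.
-/

set_option autoImplicit false
set_option linter.style.haveILetI false

open scoped commutatorElement

namespace CfsgLib.ThompsonCount

universe u

variable {X : Type u} [Group X]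

/-- The centre of `R` inside the ambient group. -/
abbrev ctrOf (R : Subgroup X) : Subgroup X := R ⊓ Subgroup.centralizer (R : Set X)

theorem ctrOf_comm (R : Subgroup X) : IsMulCommutative ↥(ctrOf R) :=
  ⟨⟨fun a b => Subtype.ext ((Subgroup.mem_centralizer_iff.mp b.2.2) a a.2.1)⟩⟩

variable {p : ℕ} {R Q C C₀ : Subgroup X}

theorem IsLayer.normal_subgroupOf (h : IsLayer p R Q C C₀) : (C₀.subgroupOf C).Normal :=
  haveI := h.normal₀
  Subgroup.normal_subgroupOf

set_option maxHeartbeats 1000000 in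
/-- The conjugation action of `X` on a normal subgroup, in additive notation on its quotient. -/
theorem exists_layer_action [Finite X] (h : IsLayer p R Q C C₀) :
    ∃ (V : Type u) (_ : AddCommGroup V) (_ : Finite V) (π : ↥C → V) (ρ : X →* AddMonoid.End V),
      Function.Surjective π ∧ (∀ a b, π (a * b) = π a + π b) ∧ (∀ a, π a = 0 ↔ (a : X) ∈ C₀) ∧
      (∀ v : V, p • v = 0) ∧
      ∀ (x : X) (c : ↥C), ρ x (π c) = π ⟨x * c * x⁻¹, h.normal.conj_mem c c.2 x⟩ := by
  haveI := h.normal
  haveI := h.normal₀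
  haveI := h.normal_subgroupOf
  haveI : IsMulCommutative (↥C ⧸ C₀.subgroupOf C) := ⟨⟨fun a b => by
    induction a using QuotientGroup.induction_on with
    | H a =>
      induction b using QuotientGroup.induction_on with
      | H b =>
        have h1 : QuotientGroup.mk' (C₀.subgroupOf C) ⁅a, b⁆ = 1 :=
          (QuotientGroup.eq_one_iff _).mpr (h.comm_R a a.2 b (h.le b.2))
        rw [map_commutatorElement, commutatorElement_eq_one_iff_mul_comm] at h1
        exact h1⟩⟩
  letI : CommGroup (↥C ⧸ C₀.subgroupOf C) :=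
    { (inferInstance : Group (↥C ⧸ C₀.subgroupOf C)) with mul_comm := fun a b => IsMulCommutative.is_comm.comm a b }
  have hle : ∀ x : X, C₀.subgroupOf C ≤ (C₀.subgroupOf C).comap (MulAut.conjNormal x).toMonoidHom := by
    intro x c hc
    rw [Subgroup.mem_comap, Subgroup.mem_subgroupOf]
    exact h.normal₀.conj_mem c hc x
  let ρ : X →* AddMonoid.End (Additive (↥C ⧸ C₀.subgroupOf C)) :=
    { toFun := fun x => MonoidHom.toAdditive
        (QuotientGroup.map (C₀.subgroupOf C) (C₀.subgroupOf C) (MulAut.conjNormal x).toMonoidHom (hle x))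
      map_one' := by
        refine DFunLike.ext _ _ fun v => ?_
        obtain ⟨c, hc⟩ := QuotientGroup.mk_surjective (Additive.toMul v)
        rw [← ofMul_toMul v, ← hc]
        show Additive.ofMul (QuotientGroup.mk _) = _
        exact congrArg Additive.ofMul (congrArg QuotientGroup.mk (Subtype.ext (by simp)))
      map_mul' := fun x y => by
        refine DFunLike.ext _ _ fun v => ?_
        obtain ⟨c, hc⟩ := QuotientGroup.mk_surjective (Additive.toMul v)
        rw [← ofMul_toMul v, ← hc]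
        show Additive.ofMul (QuotientGroup.mk _) = Additive.ofMul (QuotientGroup.mk _)
        exact congrArg Additive.ofMul (congrArg QuotientGroup.mk (Subtype.ext (by simp [mul_assoc]))) }
  haveI hfin : Finite (Additive (↥C ⧸ C₀.subgroupOf C)) := Finite.of_equiv _ Additive.ofMul
  refine ⟨Additive (↥C ⧸ C₀.subgroupOf C), Additive.addCommGroup, hfin,
    fun c => Additive.ofMul (QuotientGroup.mk c), ρ, ?_, fun a b => rfl, fun a => ?_, fun v => ?_,
    fun x c => rfl⟩
  · intro v
    obtain ⟨c, hc⟩ := QuotientGroup.mk_surjective (Additive.toMul v)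
    exact ⟨c, (congrArg Additive.ofMul hc).trans (ofMul_toMul v)⟩
  · show (QuotientGroup.mk a : ↥C ⧸ C₀.subgroupOf C) = 1 ↔ _
    rw [QuotientGroup.eq_one_iff, Subgroup.mem_subgroupOf]
  · obtain ⟨c, hc⟩ := QuotientGroup.mk_surjective (Additive.toMul v)
    apply Additive.toMul.injective
    rw [toMul_nsmul, toMul_zero, ← hc, ← QuotientGroup.mk_pow, QuotientGroup.eq_one_iff, Subgroup.mem_subgroupOf]
    exact h.pow_mem c c.2

/-- The commutator pairing of a layer. -/
theorem exists_layer_pairing (h : IsLayer p R Q C C₀) {V : Type*} [AddCommGroup V] (π : ↥C → V)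
    (hπ : Function.Surjective π) (hadd : ∀ a b, π (a * b) = π a + π b) (hker : ∀ a, π a = 0 ↔ (a : X) ∈ C₀) :
    letI : CommGroup ↥(ctrOf R) :=
      { (inferInstance : Group ↥(ctrOf R)) with mul_comm := (ctrOf_comm R).is_comm.comm }
    ∃ β : V →+ V →+ Additive ↥(ctrOf R), ∀ a b : ↥C,
      ((Additive.toMul (β (π a) (π b)) : ↥(ctrOf R)) : X) = ⁅(a : X), (b : X)⁆ := by
  letI : CommGroup ↥(ctrOf R) :=
    { (inferInstance : Group ↥(ctrOf R)) with mul_comm := (ctrOf_comm R).is_comm.comm }
  have hmem : ∀ a b : ↥C, ⁅(a : X), (b : X)⁆ ∈ ctrOf R := fun a b =>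
    ⟨Subgroup.commutator_le_self R (Subgroup.commutator_mem_commutator (h.le a.2) (h.le b.2)),
      h.comm_center a a.2 b b.2⟩
  let f : ↥C → ↥C → Additive ↥(ctrOf R) := fun a b => Additive.ofMul ⟨⁅(a : X), (b : X)⁆, hmem a b⟩
  have hcen : ∀ a b c : ↥C, (c : X) * ⁅(a : X), (b : X)⁆ * (c : X)⁻¹ = ⁅(a : X), (b : X)⁆ := fun a b c => by
    rw [Subgroup.mem_centralizer_iff.mp (hmem a b).2 c (h.le c.2), mul_inv_cancel_right]
  have hl : ∀ a a' b, f (a * a') b = f a b + f a' b := by
    intro a a' b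
    apply Additive.toMul.injective
    apply Subtype.ext
    show ⁅(a : X) * a', (b : X)⁆ = ⁅(a : X), (b : X)⁆ * ⁅(a' : X), (b : X)⁆
    calc ⁅(a : X) * a', (b : X)⁆ = ((a : X) * ⁅(a' : X), (b : X)⁆ * (a : X)⁻¹) * ⁅(a : X), (b : X)⁆ := by
          simp only [commutatorElement_def]; group
      _ = _ := by
          rw [hcen]
          exact congrArg Subtype.val ((ctrOf_comm R).is_comm.comm ⟨_, hmem a' b⟩ ⟨_, hmem a b⟩)
  have hr : ∀ a b b', f a (b * b') = f a b + f a b' := by
    intro a b b'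
    apply Additive.toMul.injective
    apply Subtype.ext
    show ⁅(a : X), (b : X) * b'⁆ = ⁅(a : X), (b : X)⁆ * ⁅(a : X), (b' : X)⁆
    calc ⁅(a : X), (b : X) * b'⁆ = ⁅(a : X), (b : X)⁆ * ((b : X) * ⁅(a : X), (b' : X)⁆ * (b : X)⁻¹) := by
          simp only [commutatorElement_def]; group
      _ = _ := by rw [hcen]
  have hz : ∀ a b : ↥C, ((a : X) ∈ C₀ ∨ (b : X) ∈ C₀) → f a b = 0 := by
    intro a b hab
    apply Additive.toMul.injective
    apply Subtype.ext
    show ⁅(a : X), (b : X)⁆ = 1
    rw [commutatorElement_eq_one_iff_mul_comm]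
    rcases hab with ha | hb
    · exact h.central₀ _ ha _ b.2
    · exact (h.central₀ _ hb _ a.2).symm
  have hπ1 : π 1 = 0 := (hker 1).mpr (one_mem _)
  have hwd : ∀ a a' : ↥C, π a = π a' → ∃ z : ↥C, (z : X) ∈ C₀ ∧ a' = a * z := by
    intro a a' e
    refine ⟨a⁻¹ * a', (hker _).mp ?_, (mul_inv_cancel_left _ _).symm⟩
    have h0 : π a + π (a⁻¹) = 0 := by rw [← hadd, mul_inv_cancel, hπ1]
    rw [hadd, ← e, add_comm, h0]
  have hf : ∀ a a' b b', π a = π a' → π b = π b' → f a b = f a' b' := by
    intro a a' b b' ea eb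
    obtain ⟨z, hzC, rfl⟩ := hwd a a' ea
    obtain ⟨z', hzC', rfl⟩ := hwd b b' eb
    rw [hl, hr, hz z _ (Or.inl hzC), hz a z' (Or.inr hzC'), add_zero, add_zero]
  let s := Function.surjInv hπ
  have hs : ∀ v, π (s v) = v := Function.surjInv_eq hπ
  refine ⟨AddMonoidHom.mk' (fun u => AddMonoidHom.mk' (fun v => f (s u) (s v)) fun v v' => ?_) fun u u' => ?_,
    fun a b => ?_⟩
  · rw [← hr]; exact hf _ _ _ _ rfl (by rw [hadd, hs, hs, hs])
  · refine AddMonoidHom.ext fun v => ?_
    show f (s (u + u')) (s v) = f (s u) (s v) + f (s u') (s v)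
    rw [← hl]; exact hf _ _ _ _ (by rw [hadd, hs, hs, hs]) rfl
  · show ((Additive.toMul (f (s (π a)) (s (π b))) : ↥(ctrOf R)) : X) = _
    rw [hf _ a _ b (hs _) (hs _)]; rfl

end CfsgLib.ThompsonCount
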