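import Cfsg.Agent.ThompsonCount.Algebra
import Cfsg.Agent.ThompsonCount.Counting
import Cfsg.Agent.ThompsonCount.Module

/-!
# No abelian subgroup of largest order acts semiregularly on a coprime abelian-like group

The key step of Thompson's normal `p`-complement criterion with `J(S)` alone, for `p ≥ 5`.
-/

set_option autoImplicit false
set_option linter.style.haveILetI false

open scoped commutatorElement

namespace CfsgLib.ThompsonCount

universe u

/-- Orbit representatives of a semiregular cyclic permutation. -/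
theorem exists_orbit_reps {α : Type*} [Fintype α] [DecidableEq α] {n : ℕ} (hn : 0 < n)
    (s : ℕ → α → α) (S : Finset α) (h0 : ∀ a, s 0 a = a) (hper : ∀ a, s n a = a)
    (hadd : ∀ i j a, s (i + j) a = s i (s j a)) (hS : ∀ i, ∀ a ∈ S, s i a ∈ S)
    (hfree : ∀ a ∈ S, ∀ i, 0 < i → i < n → s i a ≠ a) :
    ∃ T : Finset α, ∀ {M : Type*} [AddCommMonoid M] (f : α → M),
      ∑ a ∈ T, ∑ i ∈ Finset.range n, f (s i a) = ∑ a ∈ S, f a := by
  classical
  set e := Fintype.equivFin α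
  have hmod : ∀ i a, s (i % n) a = s i a := by
    intro i a
    conv_rhs => rw [← Nat.mod_add_div i n, hadd]
    have : ∀ k, s (n * k) a = a := by
      intro k
      induction k with
      | zero => simpa using h0 a
      | succ k ih => rw [Nat.mul_succ, hadd, hper, ih]
    rw [this]
  refine ⟨S.filter fun a => ∀ i < n, e a ≤ e (s i a), fun f => ?_⟩
  rw [← Finset.sum_product' (f := fun a i => f (s i a))]
  refine Finset.sum_bij (fun q _ => s q.2 q.1) ?_ ?_ ?_ (fun _ _ => rfl)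
  · rintro ⟨a, i⟩ h
    exact hS i a (Finset.mem_filter.mp (Finset.mem_product.mp h).1).1
  · rintro ⟨a, i⟩ ha ⟨b, j⟩ hb h
    simp only [Finset.mem_product, Finset.mem_filter, Finset.mem_range] at ha hb
    simp only at h
    have hb' : b = s ((n - j + i) % n) a := by
      rw [hmod, hadd, h, ← hadd, Nat.sub_add_cancel hb.2.le, hper]
    have ha' : a = s ((n - i + j) % n) b := by
      rw [hmod, hadd, ← h, ← hadd, Nat.sub_add_cancel ha.2.le, hper]
    have hab : a = b := e.injective (le_antisymm (hb' ▸ ha.1.2 _ (Nat.mod_lt _ hn))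
      (ha' ▸ hb.1.2 _ (Nat.mod_lt _ hn)))
    subst hab
    have hk : (n - j + i) % n = 0 := by
      by_contra hk
      exact hfree a ha.1.1 _ (Nat.pos_of_ne_zero hk) (Nat.mod_lt _ hn) hb'.symm
    obtain ⟨c, hc⟩ := Nat.dvd_of_mod_eq_zero hk
    have hij : i = j := by
      rcases c with _ | _ | c
      · omega
      · omega
      · have : n * 2 ≤ n * (c + 1 + 1) := Nat.mul_le_mul_left n (by omega)
        omega
    rw [hij]
  · intro a ha
    obtain ⟨i, hi, hmin⟩ := (Finset.range n).exists_min_image (fun i => e (s i a))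
      ⟨0, Finset.mem_range.mpr hn⟩
    rw [Finset.mem_range] at hi
    refine ⟨(s i a, (n - i) % n), Finset.mem_product.mpr ⟨Finset.mem_filter.mpr ⟨hS i a ha, fun j hj => ?_⟩,
      Finset.mem_range.mpr (Nat.mod_lt _ hn)⟩, ?_⟩
    · show e (s i a) ≤ e (s j (s i a))
      rw [← hadd, ← hmod (j + i)]
      exact hmin _ (Finset.mem_range.mpr (Nat.mod_lt _ hn))
    · show s ((n - i) % n) (s i a) = a
      rw [hmod, ← hadd, Nat.sub_add_cancel hi.le, hper]

variable {X : Type u} [Group X] [Finite X] {p m : ℕ} [hp : Fact p.Prime]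

/-- The degree of `g` on the centre of `R` is at most `m + 1`. -/
theorem center_degree {R A : Subgroup X} [R.Normal] (hR : IsPGroup p R) (hA : IsMulCommutative A)
    (hAp : IsPGroup p A) {g : X} (hg : g ∈ A)
    (hcard : Nat.card A ≤ p ^ m * Nat.card ↥(A ⊓ R))
    (hmax : ∀ Y : Subgroup X, Y ≤ R ⊔ A → IsMulCommutative Y → Nat.card Y ≤ Nat.card A) :
    letI : CommGroup ↥(ctrOf R) :=
      { (inferInstance : Group ↥(ctrOf R)) with mul_comm := (ctrOf_comm R).is_comm.comm }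
    ∃ σ : AddMonoid.End (Additive ↥(ctrOf R)), (σ - 1) ^ (m + 1) = 0 ∧
      ∀ z : Additive ↥(ctrOf R), ((Additive.toMul (σ z) : ↥(ctrOf R)) : X) =
        g * ((Additive.toMul z : ↥(ctrOf R)) : X) * g⁻¹ := by
  letI : CommGroup ↥(ctrOf R) :=
    { (inferInstance : Group ↥(ctrOf R)) with mul_comm := (ctrOf_comm R).is_comm.comm }
  haveI : (ctrOf R).Normal := Subgroup.normal_inf_normal _ _
  let σ : AddMonoid.End (Additive ↥(ctrOf R)) :=
    MonoidHom.toAdditive (MulAut.conjNormal (H := ctrOf R) g).toMonoidHom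
  have hσ : ∀ z : Additive ↥(ctrOf R), ((Additive.toMul (σ z) : ↥(ctrOf R)) : X) =
      g * ((Additive.toMul z : ↥(ctrOf R)) : X) * g⁻¹ := fun z => MulAut.conjNormal_apply g _
  refine ⟨σ, ?_, hσ⟩
  set D := σ - 1 with hD
  have hDval : ∀ z : Additive ↥(ctrOf R), ((Additive.toMul (D z) : ↥(ctrOf R)) : X) =
      ⁅g, ((Additive.toMul z : ↥(ctrOf R)) : X)⁆ := by
    intro z
    show ((Additive.toMul (σ z - z) : ↥(ctrOf R)) : X) = _
    rw [toMul_sub, Subgroup.coe_div, hσ, div_eq_mul_inv, commutatorElement_def]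
  set P := R ⊔ A with hP
  have hPp : IsPGroup p P := hR.to_sup_of_normal_left hAp
  haveI : Group.IsNilpotent ↥P := hPp.isNilpotent
  obtain ⟨N, hN⟩ := Subgroup.nilpotent_iff_lowerCentralSeries.mp (inferInstance : Group.IsNilpotent ↥P)
  have hDiter : ∀ k (z : Additive ↥(ctrOf R)), ((Additive.toMul ((⇑D)^[k] z) : ↥(ctrOf R)) : X) ∈
      (Subgroup.lowerCentralSeries (⊤ : Subgroup ↥P) k).map P.subtype := by
    intro k z
    induction k with
    | zero => simpa [← MonoidHom.range_eq_map] using (le_sup_left : R ≤ P) (Additive.toMul z).2.1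
    | succ k ih =>
      rw [Function.iterate_succ_apply', hDval, Subgroup.lowerCentralSeries_succ, Subgroup.map_commutator,
        ← MonoidHom.range_eq_map, Subgroup.range_subtype, Subgroup.commutator_comm]
      exact Subgroup.commutator_mem_commutator ((le_sup_right : A ≤ P) hg) ih
  have hnil : ∀ z : Additive ↥(ctrOf R), (⇑D)^[N] z = 0 := by
    intro z
    apply Additive.toMul.injective
    apply Subtype.ext
    simpa [hN] using hDiter N z
  set H := (D : Additive ↥(ctrOf R) →+ Additive ↥(ctrOf R)).range with hH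
  have hHle : Nat.card H ≤ p ^ m := by
    have hcomm : IsMulCommutative ↥(ctrOf R ⊔ (A ⊓ R)) := by
      rw [← Subgroup.closure_eq (ctrOf R), ← Subgroup.closure_eq (A ⊓ R), ← Subgroup.closure_union]
      refine Subgroup.isMulCommutative_closure ?_
      rintro x (hx | hx) y (hy | hy)
      · exact (Subgroup.mem_centralizer_iff.mp hy.2 x hx.1)
      · exact (Subgroup.mem_centralizer_iff.mp hx.2 y hy.2).symm
      · exact Subgroup.mem_centralizer_iff.mp hy.2 x hx.2
      · exact setLike_mul_comm hx.1 hy.1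
    have h1 := hmax _ (sup_le (inf_le_left.trans le_sup_left) (inf_le_right.trans le_sup_left)) hcomm
    have h2 : Nat.card ↥(ctrOf R) * (ctrOf R).relIndex (A ⊓ R) ≤ Nat.card ↥(ctrOf R ⊔ (A ⊓ R)) := by
      rw [← relIndex_mul_card_of_le (le_sup_left : ctrOf R ≤ ctrOf R ⊔ (A ⊓ R)), mul_comm (Nat.card ↥(ctrOf R))]
      exact Nat.mul_le_mul_right _ (Subgroup.relIndex_le_of_le_right le_sup_right Subgroup.index_ne_zero_of_finite)
    have h3 : (ctrOf R).relIndex (A ⊓ R) * Nat.card ↥(ctrOf R ⊓ (A ⊓ R)) = Nat.card ↥(A ⊓ R) := by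
      rw [← Subgroup.inf_relIndex_right, relIndex_mul_card_of_le inf_le_right]
    have h4 : Nat.card ↥(ctrOf R) ≤ p ^ m * Nat.card ↥(ctrOf R ⊓ (A ⊓ R)) := by
      refine Nat.le_of_mul_le_mul_right (c := (ctrOf R).relIndex (A ⊓ R)) ?_ (Nat.pos_of_ne_zero Subgroup.index_ne_zero_of_finite)
      calc Nat.card ↥(ctrOf R) * (ctrOf R).relIndex (A ⊓ R) ≤ Nat.card A := h2.trans h1
        _ ≤ p ^ m * Nat.card ↥(A ⊓ R) := hcard
        _ = p ^ m * Nat.card ↥(ctrOf R ⊓ (A ⊓ R)) * (ctrOf R).relIndex (A ⊓ R) := by rw [← h3]; ring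
    have h5 : Nat.card ↥(ctrOf R ⊓ (A ⊓ R)) ≤ Nat.card (D : Additive ↥(ctrOf R) →+ Additive ↥(ctrOf R)).ker := by
      refine Nat.card_le_card_of_injective
        (fun z => (⟨Additive.ofMul (⟨z.1, (Subgroup.mem_inf.mp z.2).1⟩ : ↥(ctrOf R)), ?_⟩ : (D : Additive ↥(ctrOf R) →+ Additive ↥(ctrOf R)).ker)) ?_
      · show D _ = 0
        apply Additive.toMul.injective
        apply Subtype.ext
        rw [hDval]
        exact commutatorElement_eq_one_iff_mul_comm.mpr (setLike_mul_comm hg (Subgroup.mem_inf.mp (Subgroup.mem_inf.mp z.2).2).1)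
      · intro a b hab
        exact Subtype.ext (congrArg (fun x : (D : Additive ↥(ctrOf R) →+ Additive ↥(ctrOf R)).ker => ((Additive.toMul x.1 : ↥(ctrOf R)) : X)) hab)
    have h6 : Nat.card H * Nat.card (D : Additive ↥(ctrOf R) →+ Additive ↥(ctrOf R)).ker = Nat.card ↥(ctrOf R) := by
      have h := AddSubgroup.card_mul_index (D : Additive ↥(ctrOf R) →+ Additive ↥(ctrOf R)).ker
      erw [AddSubgroup.index_ker] at h
      rw [mul_comm]
      exact h.trans (Nat.card_congr Additive.toMul)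
    refine Nat.le_of_mul_le_mul_right (c := Nat.card (D : Additive ↥(ctrOf R) →+ Additive ↥(ctrOf R)).ker) ?_ Nat.card_pos
    rw [h6]
    exact h4.trans (Nat.mul_le_mul_left _ h5)
  refine DFunLike.ext _ _ fun z => ?_
  by_contra hz
  have hWp : IsPGroup p (Multiplicative (Additive ↥(ctrOf R))) := hR.to_le inf_le_left
  have hbig := pow_succ_le_card (card_subgroup_pow hWp) D (N := N) hnil m H
    (by rintro _ ⟨y, rfl⟩; exact ⟨D y, rfl⟩)
    ⟨D z, ⟨z, rfl⟩, by rwa [← Function.iterate_succ_apply, ← end_pow_apply]⟩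
  exact absurd (hbig.trans hHle) (not_le.mpr (Nat.pow_lt_pow_right hp.1.one_lt (Nat.lt_succ_self m)))

/-- The configuration of an abelian subgroup of largest order outside `R` is impossible. -/
theorem false_of_offender {R Q A : Subgroup X} [R.Normal] (hp5 : 5 ≤ p) (hm : 1 ≤ m) (hR : IsPGroup p R)
    (hQ : (Nat.card Q).Coprime p) (hRQ : (R ⊔ Q).Normal) (hne : ¬ Q ≤ Subgroup.centralizer (R : Set X))
    (hA : IsMulCommutative A) (hAp : IsPGroup p A) {g : X} (hg : g ∈ A) (hgn : g ^ p ^ m ∈ R)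
    (hgen : ∀ a ∈ A, ∃ l : ℕ, ∃ b ∈ R, a = b * g ^ l)
    (hcard : Nat.card A ≤ p ^ m * Nat.card ↥(A ⊓ R))
    (hsemi : ∀ q ∈ Q, ∀ i, 0 < i → i < p ^ m → ⁅g ^ i, q⁆ ∈ R → q = 1)
    (hmax : ∀ Y : Subgroup X, Y ≤ R ⊔ A → IsMulCommutative Y → Nat.card Y ≤ Nat.card A) : False := by
  classical
  obtain ⟨C, C₀, hL⟩ := exists_layer hR hQ hRQ hne
  obtain ⟨V, _, _, π, ρ, hπ, hadd, hker, hpV, hρ⟩ := exists_layer_action hL
  letI : CommGroup ↥(ctrOf R) :=
    { (inferInstance : Group ↥(ctrOf R)) with mul_comm := (ctrOf_comm R).is_comm.comm }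
  obtain ⟨β, hβ⟩ := exists_layer_pairing hL π hπ hadd hker
  obtain ⟨σ, hσ, hσval⟩ := center_degree hR hA hAp hg hcard hmax
  haveI := hL.normal
  haveI := hL.normal₀
  set n := p ^ m with hn
  have hn0 : 0 < n := Nat.pow_pos hp.1.pos
  have hπ1 : π 1 = 0 := (hker 1).mpr (one_mem _)
  have hπeq : ∀ a b : ↥C, (a : X)⁻¹ * b ∈ C₀ → π a = π b := by
    intro a b hab
    rw [← mul_inv_cancel_left a b, hadd, (hker (a⁻¹ * b)).mpr hab, add_zero]
  -- `R` acts trivially
  have hρR : R ≤ ρ.ker := by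
    intro r hr
    refine DFunLike.ext _ _ fun v => ?_
    obtain ⟨c, rfl⟩ := hπ v
    rw [hρ]
    refine hπeq _ _ ?_
    have h1 := hL.comm_R _ (inv_mem c.2) r hr
    show (r * c * r⁻¹)⁻¹ * (c : X) ∈ C₀
    have h3 : (⁅(c : X)⁻¹, r⁆)⁻¹ = (r * c * r⁻¹)⁻¹ * (c : X) := by
      rw [commutatorElement_def]; group
    exact h3 ▸ inv_mem h1
  let mk := QuotientGroup.mk' R
  let ρq : X ⧸ R →* AddMonoid.End V := QuotientGroup.lift R ρ hρR
  have hρq : ∀ x, ρq (mk x) = ρ x := fun x => rfl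
  set Qb := Q.map mk with hQb
  haveI hQbn : Qb.Normal := by
    have : Qb = (R ⊔ Q).map mk := by
      rw [hQb, Subgroup.map_sup, (Subgroup.map_eq_bot_iff R).mpr (QuotientGroup.ker_mk' R).ge, bot_sup_eq]
    rw [this]; exact hRQ.map mk (QuotientGroup.mk'_surjective _)
  haveI : Fintype ↥Qb := Fintype.ofFinite _
  have hgn' : mk g ^ n = 1 := by rw [← map_pow]; exact (QuotientGroup.eq_one_iff _).mpr hgn
  -- fixed points of `Qb`
  have hfix : ∀ v, (∀ q : ↥Qb, ρq q v = v) → v = 0 := by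
    intro v hv
    obtain ⟨c, rfl⟩ := hπ v
    rw [hker]
    refine hL.fixed c c.2 fun q hq => ?_
    have h1 := hv ⟨mk q, q, hq, rfl⟩
    rw [hρq, hρ] at h1
    have h2 : π (c * ⟨q * c * q⁻¹, hL.normal.conj_mem c c.2 q⟩⁻¹) = 0 := by
      have hi : ∀ a : ↥C, π a + π a⁻¹ = 0 := fun a => by rw [← hadd, mul_inv_cancel, hπ1]
      rw [hadd, ← h1]; exact hi _
    rw [hker] at h2
    have e : ((c * ⟨q * c * q⁻¹, hL.normal.conj_mem c c.2 q⟩⁻¹ : ↥C) : X) = ⁅(c : X), q⁆ := by
      simp [commutatorElement_def, mul_assoc]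
    rwa [e] at h2
  set G : AddMonoid.End V := ρ g with hG
  have hGpow : ∀ i, G ^ i = ρq (mk g ^ i) := fun i => by rw [map_pow, hρq]
  have hGn : G ^ n = 1 := by rw [hGpow, hgn', map_one]
  -- orbit representatives
  let s : ℕ → ↥Qb → ↥Qb := fun i q => ⟨mk g ^ i * q * (mk g ^ i)⁻¹, hQbn.conj_mem q q.2 _⟩
  obtain ⟨reps, hreps⟩ := exists_orbit_reps hn0 s (Finset.univ.erase 1)
    (fun a => Subtype.ext (by simp [s]))
    (fun a => Subtype.ext (by simp [s, hgn']))
    (fun i j a => Subtype.ext (by simp [s, pow_add, mul_assoc]))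
    (fun i a ha => Finset.mem_erase.mpr ⟨fun h => (Finset.mem_erase.mp ha).1 (Subtype.ext (by
      have h' := congrArg Subtype.val h
      simp only [s, OneMemClass.coe_one] at h'
      exact conj_eq_one_iff.mp h')), Finset.mem_univ _⟩)
    (fun a ha i hi hin h => (Finset.mem_erase.mp ha).1 (Subtype.ext (by
      obtain ⟨q, hq, hqa⟩ := a.2
      have h' := congrArg Subtype.val h
      simp only [s] at h'
      have hq1 : q = 1 := hsemi q hq i hi hin (by
        rw [← QuotientGroup.eq_one_iff]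
        show mk ⁅g ^ i, q⁆ = 1
        rw [map_commutatorElement, map_pow, hqa, commutatorElement_def, h', mul_inv_cancel])
      rw [← hqa, hq1, map_one]; rfl)))
  -- the trace element
  let φ : AddMonoid.End V := - ∑ q ∈ reps, (ρq q + ρq (q⁻¹ : ↥Qb))
  have happ : ∀ (ι : Type u) (S : Finset ι) (f : ι → AddMonoid.End V) (v : V),
      (∑ q ∈ S, f q) v = ∑ q ∈ S, f q v := fun ι S f v =>
    AddMonoidHom.finsetSum_apply (fun q => (f q : V →+ V)) S v
  have hQsum : ∀ v, ∑ q ∈ (Finset.univ.erase (1 : ↥Qb)), ρq q v = - v := by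
    intro v
    have h1 : ∑ q : ↥Qb, ρq q v = 0 := by
      refine hfix _ fun r => ?_
      rw [map_sum]
      refine Fintype.sum_equiv (Equiv.mulLeft r) _ _ fun q => ?_
      rw [← end_mul_apply, ← map_mul]; rfl
    rw [← Finset.add_sum_erase _ _ (Finset.mem_univ (1 : ↥Qb))] at h1
    simp only [OneMemClass.coe_one, map_one] at h1
    exact eq_neg_of_add_eq_zero_right h1
  have hQsum' : ∀ v, ∑ q ∈ (Finset.univ.erase (1 : ↥Qb)), ρq (q⁻¹ : ↥Qb) v = - v := by
    intro v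
    rw [← hQsum v]
    exact Finset.sum_nbij' (fun q => q⁻¹) (fun q => q⁻¹) (by simp) (by simp) (by simp) (by simp) (by simp)
  have htr : ∀ v, ∑ i ∈ Finset.range n, (G ^ i) (φ ((G ^ (n - i)) v)) = v + v := by
    intro v
    have hterm : ∀ i < n, ∀ q : ↥Qb, (G ^ i) (ρq q ((G ^ (n - i)) v)) = ρq (s i q) v := by
      intro i hi q
      have hinv : mk g ^ (n - i) = (mk g ^ i)⁻¹ :=
        eq_inv_of_mul_eq_one_left (by rw [← pow_add, Nat.sub_add_cancel hi.le, hgn'])
      rw [hGpow, hGpow, ← end_mul_apply, ← end_mul_apply, ← map_mul, ← map_mul, hinv]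
    have hterm' : ∀ i < n, ∀ q : ↥Qb, (G ^ i) (ρq (q⁻¹ : ↥Qb) ((G ^ (n - i)) v)) = ρq ((s i q)⁻¹ : ↥Qb) v := by
      intro i hi q
      rw [hterm i hi]
      exact congrArg (fun y : X ⧸ R => ρq y v) (by simp [s, mul_assoc])
    calc ∑ i ∈ Finset.range n, (G ^ i) (φ ((G ^ (n - i)) v))
        = ∑ i ∈ Finset.range n, - ∑ q ∈ reps, (ρq (s i q) v + ρq ((s i q)⁻¹ : ↥Qb) v) := by
          refine Finset.sum_congr rfl fun i hi => ?_
          show (G ^ i) (- ((∑ q ∈ reps, (ρq q + ρq (q⁻¹ : ↥Qb)) : AddMonoid.End V) ((G ^ (n - i)) v))) = _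
          rw [map_neg, happ, map_sum]
          refine congrArg Neg.neg (Finset.sum_congr rfl fun q _ => ?_)
          show (G ^ i) (ρq q _ + ρq (q⁻¹ : ↥Qb) _) = _
          rw [map_add, hterm i (Finset.mem_range.mp hi), hterm' i (Finset.mem_range.mp hi)]
      _ = v + v := by
          rw [Finset.sum_neg_distrib, Finset.sum_comm,
            hreps (fun q => ρq q v + ρq (q⁻¹ : ↥Qb) v), Finset.sum_add_distrib, hQsum, hQsum']
          simp
  -- equivariance
  have hval : ∀ a b : ↥C, ∀ x : X, ⁅x * a * x⁻¹, x * b * x⁻¹⁆ = x * ⁅(a : X), (b : X)⁆ * x⁻¹ := by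
    intro a b x; simp only [commutatorElement_def]; group
  have hβG : ∀ u v, β (G u) (G v) = σ (β u v) := by
    intro u v
    obtain ⟨a, rfl⟩ := hπ u
    obtain ⟨b, rfl⟩ := hπ v
    apply Additive.toMul.injective
    apply Subtype.ext
    rw [hG, hρ, hρ, hβ, hσval, hβ]
    exact hval a b g
  have hβQ : ∀ (q : ↥Qb) u v, β (ρq q u) (ρq q v) = β u v := by
    intro q u v
    obtain ⟨x, hx, hxq⟩ := q.2
    obtain ⟨a, rfl⟩ := hπ u
    obtain ⟨b, rfl⟩ := hπ v
    apply Additive.toMul.injective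
    apply Subtype.ext
    rw [← hxq, hρq, hρ, hρ, hβ, hβ]
    show ⁅x * a * x⁻¹, x * b * x⁻¹⁆ = _
    rw [hval, ← hL.fix_Q _ (hL.comm_R a a.2 b (hL.le b.2)) x hx, mul_inv_cancel_right]
  have hβ1 : ∀ (q : ↥Qb) u v, β (ρq q u) v = β u (ρq (q⁻¹ : ↥Qb) v) := by
    intro q u v
    conv_rhs => rw [← hβQ q]
    rw [← end_mul_apply, ← map_mul]
    simp
  have hadj : ∀ u v, β (φ u) v = β u (φ v) := by
    intro u v
    show β (- ((∑ q ∈ reps, (ρq q + ρq (q⁻¹ : ↥Qb)) : AddMonoid.End V) u)) v =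
      β u (- ((∑ q ∈ reps, (ρq q + ρq (q⁻¹ : ↥Qb)) : AddMonoid.End V) v))
    rw [happ, happ, map_neg, AddMonoidHom.neg_apply, map_neg, map_sum, map_sum, AddMonoidHom.finsetSum_apply]
    refine congrArg Neg.neg (Finset.sum_congr rfl fun q _ => ?_)
    show β (ρq q u + ρq (q⁻¹ : ↥Qb) u) v = β u (ρq q v + ρq (q⁻¹ : ↥Qb) v)
    rw [map_add, AddMonoidHom.add_apply, map_add, hβ1, hβ1, inv_inv, add_comm]
  have halt : ∀ u, β u u = 0 := by
    intro u
    obtain ⟨a, rfl⟩ := hπ u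
    apply Additive.toMul.injective
    apply Subtype.ext
    rw [hβ, commutatorElement_self]; rfl
  haveI : Nontrivial V := by
    obtain ⟨x, hxC, hx⟩ := SetLike.exists_of_lt (lt_of_le_of_ne hL.le₀ hL.lt)
    exact ⟨⟨π ⟨x, hxC⟩, 0, fun h => hx ((hker _).mp h)⟩⟩
  obtain ⟨v, U, hvU, hiso, hcount⟩ := exists_isotropic_orbit hp5 hm hpV G φ σ hGn htr hσ β hβG halt hadj
  obtain ⟨c, hc⟩ := hπ v
  -- the commutators of a lift
  have hcomm_val : ∀ a ∈ A, ∃ (k : ↥C) (l : ℕ), (k : X) = ⁅(c : X)⁻¹, a⁆ ∧ π k = (G ^ l) v - v := by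
    intro a ha
    obtain ⟨l, b, hb, rfl⟩ := hgen a ha
    refine ⟨c⁻¹ * ⟨b * g ^ l * c * (b * g ^ l)⁻¹, hL.normal.conj_mem c c.2 _⟩, l, ?_, ?_⟩
    · simp only [Subgroup.coe_mul, InvMemClass.coe_inv, commutatorElement_def]; group
    · have hi : π c⁻¹ = - π c := eq_neg_of_add_eq_zero_right (by rw [← hadd, mul_inv_cancel, hπ1])
      rw [hadd, hi, ← hρ, map_mul, show ρ b = 1 from hρR hb, one_mul, map_pow, hc, ← hG]
      abel
  have hP : ∀ a ∈ A, ⁅(c : X)⁻¹, a⁆ ∈ R ⊔ A := fun a ha => by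
    obtain ⟨k, l, hk, -⟩ := hcomm_val a ha
    exact hk ▸ Subgroup.mem_sup_left (hL.le k.2)
  have hcom : ∀ a ∈ A, ∀ b ∈ A, Commute ⁅(c : X)⁻¹, a⁆ ⁅(c : X)⁻¹, b⁆ := by
    intro a ha b hb
    obtain ⟨k, l, hk, hkv⟩ := hcomm_val a ha
    obtain ⟨k', l', hk', hkv'⟩ := hcomm_val b hb
    have h0 : β (π k) (π k') = 0 := by rw [hkv, hkv']; exact hiso _ (hvU l) _ (hvU l')
    have h1 := hβ k k'
    rw [h0] at h1
    rw [← hk, ← hk']
    exact commutatorElement_eq_one_iff_mul_comm.mp h1.symm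
  have hsurj := exists_commutator_mul_fixed hA le_sup_right hmax hP hcom
  set O := AddSubgroup.closure (Set.range fun l : ℕ => (G ^ l) v - v) with hO
  -- lifting the orbit
  have hlift : ∀ x ∈ O, ∃ y : ↥C, (y : X) ∈ commSpan A (c : X) ∧ π y = x := by
    intro x hx
    induction hx using AddSubgroup.closure_induction with
    | mem x hx =>
      obtain ⟨l, rfl⟩ := hx
      refine ⟨c⁻¹ * ⟨g ^ l * c * (g ^ l)⁻¹, hL.normal.conj_mem c c.2 _⟩, ?_, ?_⟩
      · refine Subgroup.subset_closure ⟨⟨g ^ l, pow_mem hg l⟩, ?_⟩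
        simp [commutatorElement_def, mul_assoc]
      · have hi : π c⁻¹ = - π c := eq_neg_of_add_eq_zero_right (by rw [← hadd, mul_inv_cancel, hπ1])
        rw [hadd, hi, ← hρ, map_pow, hc, ← hG]
        abel
    | zero => exact ⟨1, one_mem _, hπ1⟩
    | add x y _ _ hx hy =>
      obtain ⟨a, ha, rfl⟩ := hx
      obtain ⟨b, hb, rfl⟩ := hy
      exact ⟨a * b, mul_mem ha hb, hadd a b⟩
    | neg x _ hx =>
      obtain ⟨a, ha, rfl⟩ := hx
      exact ⟨a⁻¹, inv_mem ha, eq_neg_of_add_eq_zero_right (by rw [← hadd, mul_inv_cancel, hπ1])⟩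
  set T : AddMonoid.End V := G - 1 with hT
  set Im := (Finset.range n).image fun l => T ((G ^ l) v - v) with hIm
  have hsub : ∀ w ∈ O.map (T : V →+ V), w ∈ Im := by
    rintro _ ⟨x, hx, rfl⟩
    obtain ⟨y, hy, rfl⟩ := hlift x hx
    obtain ⟨a, ha, hfix'⟩ := hsurj (y : X) hy
    obtain ⟨k, l, hk, hkv⟩ := hcomm_val a ha
    refine Finset.mem_image.mpr ⟨l % n, Finset.mem_range.mpr (Nat.mod_lt _ hn0), ?_⟩
    have hl : (G ^ l) v = (G ^ (l % n)) v := by
      conv_lhs => rw [← Nat.mod_add_div l n, pow_add, pow_mul, hGn, one_pow, mul_one]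
    rw [← hl, ← hkv]
    have hfixg : g * ((k : X)⁻¹ * y) * g⁻¹ = (k : X)⁻¹ * y := by
      rw [hk]
      rw [Subgroup.mem_centralizer_iff.mp hfix' g hg, mul_inv_cancel_right]
    have h1 : G (π (k⁻¹ * y)) = π (k⁻¹ * y) := by
      rw [hG, hρ]
      exact congrArg π (Subtype.ext hfixg)
    have h2 : π y = π k + π (k⁻¹ * y) := by rw [← hadd, mul_inv_cancel_left]
    show T (π k) = T (π y)
    rw [h2, map_add, hT]
    show _ = _ + (G (π (k⁻¹ * y)) - π (k⁻¹ * y))
    rw [h1, sub_self, add_zero]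
  have hle : Nat.card (O.map (T : V →+ V)) ≤ n := by
    refine le_trans (Nat.card_le_card_of_injective (fun w => (⟨w.1, hsub w.1 w.2⟩ : Im)) ?_) ?_
    · intro a b hab; exact Subtype.ext (congrArg Subtype.val hab :)
    · rw [Nat.card_eq_fintype_card, Fintype.card_coe]
      exact Finset.card_image_le.trans (Finset.card_range n).le
  exact absurd hcount (not_lt.mpr hle)

end CfsgLib.ThompsonCount
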