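import Cfsg.Agent.Coprime.Minimal
import Mathlib.GroupTheory.SpecificGroups.Cyclic
import Mathlib.GroupTheory.Sylow

/-!
# A minimal normal layer not centralized by a coprime group

For a normal `p`-subgroup `R` and a `p'`-group `Q` with `R Q` normal and `Q` nontrivial on `R`,
there is a normal `C ≤ R` with a normal `C₀ ≤ C` such that `C / C₀` has exponent `p`, `R` acts
trivially and `Q` without nonzero fixed points on it, `C₀` is central in `C` and centralized by
`Q`, and the commutators of `C` are central in `R` and centralized by `Q`.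
-/

set_option autoImplicit false
set_option linter.style.haveILetI false

open scoped commutatorElement

namespace CfsgLib.ThompsonCount

variable {X : Type*} [Group X] [Finite X] {p : ℕ} [Fact p.Prime]

/-- A normal subgroup of a `p`-group `R` equal to its commutator with `R` is trivial. -/
theorem eq_bot_of_commutator_eq {R C : Subgroup X} (hR : IsPGroup p R) (hCR : C ≤ R)
    (h : C ≤ ⁅C, R⁆) : C = ⊥ := by
  have key : ∀ n, C ≤ ((Subgroup.lowerCentralSeries (⊤ : Subgroup ↥R) n)).map R.subtype := by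
    intro n
    induction n with
    | zero => simpa [← MonoidHom.range_eq_map] using hCR
    | succ n ih =>
      refine h.trans ((Subgroup.commutator_mono ih le_rfl).trans ?_)
      rw [Subgroup.lowerCentralSeries_succ, Subgroup.map_commutator, ← MonoidHom.range_eq_map,
        Subgroup.range_subtype]
  haveI : Group.IsNilpotent ↥R := hR.isNilpotent
  obtain ⟨n, hn⟩ := Subgroup.nilpotent_iff_lowerCentralSeries.mp (inferInstance : Group.IsNilpotent ↥R)
  exact le_bot_iff.mp ((key n).trans (by rw [hn, Subgroup.map_bot]))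

/-- The properties of the layer. -/
structure IsLayer (p : ℕ) (R Q C C₀ : Subgroup X) : Prop where
  normal : C.Normal
  normal₀ : C₀.Normal
  le : C ≤ R
  le₀ : C₀ ≤ C
  lt : C₀ ≠ C
  pow_mem : ∀ x ∈ C, x ^ p ∈ C₀
  comm_R : ∀ x ∈ C, ∀ r ∈ R, ⁅x, r⁆ ∈ C₀
  central₀ : ∀ x ∈ C₀, ∀ y ∈ C, x * y = y * x
  comm_center : ∀ x ∈ C, ∀ y ∈ C, ⁅x, y⁆ ∈ Subgroup.centralizer (R : Set X)
  fix_Q : ∀ x ∈ C₀, ∀ q ∈ Q, x * q = q * x
  fixed : ∀ x ∈ C, (∀ q ∈ Q, ⁅x, q⁆ ∈ C₀) → x ∈ C₀

theorem exists_layer {R Q : Subgroup X} [R.Normal] (hR : IsPGroup p R) (hQ : (Nat.card Q).Coprime p)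
    (hRQ : (R ⊔ Q).Normal) (hne : ¬ Q ≤ Subgroup.centralizer (R : Set X)) :
    ∃ C C₀ : Subgroup X, IsLayer p R Q C C₀ := by
  classical
  set N := Subgroup.normalClosure (Q : Set X) with hN
  haveI hNn : N.Normal := Subgroup.normalClosure_normal
  have hQN : Q ≤ N := Subgroup.le_normalClosure
  haveI := hRQ
  have hNRQ : N ≤ R ⊔ Q := Subgroup.normalClosure_le_normal (SetLike.coe_subset_coe.mpr le_sup_right)
  -- a normal subgroup centralized by `Q` is centralized by `N`
  have hcentN : ∀ D : Subgroup X, D.Normal → D ≤ Subgroup.centralizer (Q : Set X) →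
      D ≤ Subgroup.centralizer (N : Set X) := fun D hD hDQ =>
    Subgroup.le_centralizer_iff.mp (Subgroup.normalClosure_le_normal
      (N := Subgroup.centralizer (D : Set X)) (SetLike.coe_subset_coe.mpr (Subgroup.le_centralizer_iff.mp hDQ)))
  obtain ⟨C, ⟨hCn, hCR, hCQ⟩, hmin⟩ :=
    exists_minimal_of_wellFoundedLT (fun D : Subgroup X => D.Normal ∧ D ≤ R ∧ ¬ D ≤ Subgroup.centralizer (N : Set X))
      ⟨R, inferInstance, le_rfl, fun h => hne (Subgroup.le_centralizer_iff.mp
        (h.trans (Subgroup.centralizer_le (SetLike.coe_subset_coe.mpr hQN))))⟩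
  haveI := hCn
  set C₀ := C ⊓ Subgroup.centralizer (N : Set X) with hC₀
  haveI hC₀n : C₀.Normal := Subgroup.normal_inf_normal _ _
  have hprop : ∀ D : Subgroup X, D.Normal → D ≤ C → D ≠ C → D ≤ C₀ := by
    intro D hD hDC hne'
    refine le_inf hDC ?_
    by_contra h
    exact hne' (le_antisymm hDC (hmin ⟨hD, hDC.trans hCR, h⟩ hDC))
  have hCp : IsPGroup p C := hR.to_le hCR
  have hCne : C ≠ ⊥ := fun h => hCQ (h ▸ bot_le)
  have hcopC : (Nat.card Q).Coprime (Nat.card C) := by
    obtain ⟨e, he⟩ := IsPGroup.iff_card.mp hCp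
    rw [he]; exact hQ.pow_right e
  have hQC : Q ≤ Subgroup.normalizer (C : Set X) := Subgroup.le_normalizer_of_normal
  have hCR' : ⁅C, R⁆ ≤ C₀ :=
    hprop _ inferInstance (Subgroup.commutator_le_left C R) fun h => hCne (eq_bot_of_commutator_eq hR hCR h.ge)
  have hCNeq : ⁅C, N⁆ = C := by
    by_contra h
    have h1 : ⁅C, Q⁆ ≤ C₀ :=
      (Subgroup.commutator_mono le_rfl hQN).trans (hprop _ inferInstance (Subgroup.commutator_le_left C N) h)
    have h2 : ⁅⁅C, Q⁆, Q⁆ = ⊥ := Subgroup.commutator_eq_bot_iff_le_centralizer.mpr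
      (h1.trans (inf_le_right.trans (Subgroup.centralizer_le (SetLike.coe_subset_coe.mpr hQN))))
    have h3 := Subgroup.commutator_eq_bot_iff_le_centralizer.mp (Coprime.commutator_eq_bot_of_stab hQC hcopC h2)
    exact hCQ (hcentN C hCn h3)
  have hCN : C ≤ N := hCNeq ▸ Subgroup.commutator_le_right C N
  have hfrat : ∀ x ∈ C, x ^ p ∈ C₀ := by
    intro x hx
    haveI : ((frattini ↥C).map C.subtype).Normal := ConjAct.normal_of_characteristic_of_normal
    exact hprop _ inferInstance (Subgroup.map_subtype_le _) (Coprime.frattini_map_lt hCp hCne).ne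
      (Coprime.pow_mem_frattini_map hCp hx)
  have hcentral : ∀ x ∈ C₀, ∀ y ∈ C, x * y = y * x := fun x hx y hy =>
    (Subgroup.mem_centralizer_iff.mp hx.2 y (hCN hy)).symm
  have hfixQ : ∀ x ∈ C₀, ∀ q ∈ Q, x * q = q * x := fun x hx q hq =>
    (Subgroup.mem_centralizer_iff.mp hx.2 q (hQN hq)).symm
  have hfixed : ∀ x ∈ C, (∀ q ∈ Q, ⁅x, q⁆ ∈ C₀) → x ∈ C₀ := by
    intro x hx hxQ
    set π := QuotientGroup.mk' C₀
    haveI : (N.map π).Normal := hNn.map π (QuotientGroup.mk'_surjective _)
    set W := C ⊓ (Subgroup.centralizer (N.map π : Set (X ⧸ C₀))).comap π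
    haveI : W.Normal := Subgroup.normal_inf_normal _ _
    have hxW : x ∈ W := by
      refine ⟨hx, Subgroup.mem_centralizer_iff.mpr ?_⟩
      rintro _ ⟨y, hy, rfl⟩
      have hle : R ⊔ Q ≤ (Subgroup.centralizer ({π x} : Set (X ⧸ C₀))).comap π := by
        have key : ∀ z, ⁅x, z⁆ ∈ C₀ → z ∈ (Subgroup.centralizer ({π x} : Set (X ⧸ C₀))).comap π := by
          intro z hz
          rw [Subgroup.mem_comap, Subgroup.mem_centralizer_singleton_iff]
          have : π ⁅x, z⁆ = 1 := (QuotientGroup.eq_one_iff _).mpr hz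
          rw [map_commutatorElement, commutatorElement_eq_one_iff_mul_comm] at this
          exact this.symm
        exact sup_le (fun r hr => key r (hCR' (Subgroup.commutator_mem_commutator hx hr)))
          (fun q hq => key q (hxQ q hq))
      exact Subgroup.mem_centralizer_singleton_iff.mp (hle (hNRQ hy))
    by_cases hWC : W = C
    · exfalso
      refine hCQ (hcentN C hCn ?_)
      have h1 : ⁅C, N⁆ ≤ C₀ := by
        rw [Subgroup.commutator_le]
        intro a ha b hb
        rw [← hWC] at ha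
        rw [← QuotientGroup.eq_one_iff, ← QuotientGroup.mk'_apply, map_commutatorElement,
          commutatorElement_eq_one_iff_mul_comm]
        exact (Subgroup.mem_centralizer_iff.mp ha.2 _ ⟨b, hb, rfl⟩).symm
      rw [hCNeq] at h1
      exact fun a ha => Subgroup.mem_centralizer_iff.mpr fun q hq => ((hfixQ a (h1 ha) q hq)).symm
    · exact hprop W inferInstance inf_le_left hWC hxW
  -- the commutators of `C` are central in `R`
  have hdec : C ≤ ⁅C, Q⁆ ⊔ C₀ := by
    refine le_trans (Coprime.eq_commutator_sup_centralizer hQC hcopC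
      (Or.inr (Coprime.isSolvable_of_isPGroup hCp))).ge (sup_le_sup_left (fun x hx => ?_) _)
    refine hfixed x hx.1 fun q hq => ?_
    rw [show ⁅x, q⁆ = 1 from commutatorElement_eq_one_iff_mul_comm.mpr
      (Subgroup.mem_centralizer_iff.mp hx.2 q hq).symm]
    exact one_mem _
  set N₀ := R ⊓ Subgroup.centralizer (Q : Set X) with hN₀
  have hK : ⁅⁅Q, C⁆, N₀⁆ = ⊥ := by
    refine Subgroup.commutator_commutator_eq_bot_of_rotate ?_ ?_
    · rw [Subgroup.commutator_eq_bot_iff_le_centralizer]
      exact ((Subgroup.commutator_mono le_rfl inf_le_left).trans hCR').trans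
        (inf_le_right.trans (Subgroup.centralizer_le (SetLike.coe_subset_coe.mpr hQN)))
    · rw [Subgroup.commutator_eq_bot_iff_le_centralizer.mpr (inf_le_right : N₀ ≤ _), Subgroup.commutator_bot_left]
  have hK' : ⁅C, Q⁆ ≤ Subgroup.centralizer (N₀ : Set X) := by
    rw [← Subgroup.commutator_eq_bot_iff_le_centralizer, Subgroup.commutator_comm C Q]
    exact hK
  have hcc : ∀ x ∈ C, ∀ y ∈ C, ⁅x, y⁆ ∈ Subgroup.centralizer (R : Set X) := by
    intro x hx y hy
    have hin : ⁅x, y⁆ ∈ C₀ := hCR' (Subgroup.commutator_mem_commutator hx (hCR hy))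
    have hzN₀ : ⁅x, y⁆ ∈ Subgroup.centralizer (N₀ : Set X) := by
      obtain ⟨k, hk, c, hc, rfl⟩ := Subgroup.mem_sup_of_normal_right.mp (hdec hx)
      obtain ⟨k', hk', c', hc', rfl⟩ := Subgroup.mem_sup_of_normal_right.mp (hdec hy)
      have hkC : k ∈ C := Coprime.commutator_le_of_le_normalizer hQC hk
      have hk'C : k' ∈ C := Coprime.commutator_le_of_le_normalizer hQC hk'
      have e : ⁅k * c, k' * c'⁆ = ⁅k, k'⁆ := by
        have h1 : c * (k' * c') * c⁻¹ = k' * c' := by
          rw [hcentral c hc _ (mul_mem hk'C hc'.1), mul_inv_cancel_right]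
        have h2 : c' * k⁻¹ * c'⁻¹ = k⁻¹ := by
          rw [hcentral c' hc' _ (inv_mem hkC), mul_inv_cancel_right]
        calc ⁅k * c, k' * c'⁆ = k * (c * (k' * c') * c⁻¹) * k⁻¹ * (k' * c')⁻¹ := by
              rw [commutatorElement_def]; group
          _ = k * k' * (c' * k⁻¹ * c'⁻¹) * k'⁻¹ := by rw [h1]; group
          _ = ⁅k, k'⁆ := by rw [h2, commutatorElement_def]
      rw [e, commutatorElement_def]
      exact mul_mem (mul_mem (mul_mem (hK' hk) (hK' hk')) (inv_mem (hK' hk))) (inv_mem (hK' hk'))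
    have hcopR : (Nat.card Q).Coprime (Nat.card R) := by
      obtain ⟨e, he⟩ := IsPGroup.iff_card.mp hR
      rw [he]; exact hQ.pow_right e
    have hRdec : R ≤ N ⊔ N₀ :=
      le_trans (Coprime.eq_commutator_sup_centralizer Subgroup.le_normalizer_of_normal hcopR
        (Or.inr (Coprime.isSolvable_of_isPGroup hR))).ge
        (sup_le_sup_right ((Subgroup.commutator_mono le_rfl hQN).trans (Subgroup.commutator_le_right R N)) _)
    rw [Subgroup.mem_centralizer_iff]
    intro r hr
    have hsup : N ⊔ N₀ ≤ Subgroup.centralizer ({⁅x, y⁆} : Set X) :=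
      sup_le (fun n hn => Subgroup.mem_centralizer_singleton_iff.mpr
          (Subgroup.mem_centralizer_iff.mp hin.2 n hn))
        (fun n hn => Subgroup.mem_centralizer_singleton_iff.mpr (Subgroup.mem_centralizer_iff.mp hzN₀ n hn))
    exact Subgroup.mem_centralizer_singleton_iff.mp (hsup (hRdec hr))
  exact ⟨C, C₀, hCn, hC₀n, hCR, inf_le_left, fun h => hCQ (inf_eq_left.mp h), hfrat,
    fun x hx r hr => hCR' (Subgroup.commutator_mem_commutator hx hr), hcentral, hcc, hfixQ, hfixed⟩

end CfsgLib.ThompsonCount
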